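import Cfsg.Agent.H395.E83.Real
import Cfsg.Agent.H736.Co3.Sp

/-!
# S5925, box E: the subgroup `E₂` of type `A₄` of `E₈` fixes the 24-dimensional algebra of `E₁` (helper627)
-/

set_option autoImplicit false
set_option maxRecDepth 100000

namespace Cfsg.Agent.H627.E8L

open Module Matrix
open Cfsg.Lie Cfsg.Agent.ChevalleyStructure Cfsg.Agent.ChevalleyStructure.XColumns Cfsg.Agent.ChevalleyStructure.Elts
open Cfsg.Agent.H395.E83

/-- the roots of `E₁` (simple roots `a₁ a₃ a₄ a₂`) -/
def R1 : List ℕ := [162, 163, 164, 169, 77, 135, 136, 147, 76, 104, 130, 142, 75, 103, 109, 141, 70, 92, 97, 98]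

/-- the roots of `E₂` (simple roots `a₀ a₈ a₇ a₆`) -/
def R2 : List ℕ := [0, 1, 2, 3, 239, 120, 122, 125, 238, 119, 121, 124, 237, 117, 118, 123, 236, 114, 115, 116]

theorem chk : (R2.all fun r => Nat.blt r 240 && (R1.all fun s => Nat.blt s 240 && !(Nat.beq s r) && !(Nat.beq s (chevE8.neg r)) &&
    ((row chevE8 r).all fun e => !(Nat.beq e.1 s))) && decide ((row chevE8 r).map Prod.fst).Nodup &&
    ((List.range 4).all fun i => decide (chevE8.cartan i r = 0))) = true := by
  decide +kernel

theorem len1 : R1.length = 20 := rfl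

theorem lt1 : ∀ k : Fin 20, R1.getD k 0 < chevE8.nroots := by
  intro k
  show _ < 240
  revert k
  decide

theorem inj1 : ∀ k l : Fin 20, R1.getD k 0 = R1.getD l 0 → k = l := by decide

/-- the 24 basis vectors -/
def f24 : Fin 4 ⊕ Fin 20 → chevE8.Idx
  | Sum.inl i => Sum.inl ⟨i.1, by have := i.2; show i.1 < 8; omega⟩
  | Sum.inr k => Sum.inr ⟨R1.getD k 0, lt1 k⟩

theorem f24_inj : Function.Injective f24 := by
  rintro (i | k) (i' | k') h
  · have h1 := congrArg Fin.val (Sum.inl_injective h)
    exact congrArg Sum.inl (Fin.ext h1)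
  · cases h
  · cases h
  · have h1 := congrArg Fin.val (Sum.inr_injective h)
    exact congrArg Sum.inr (inj1 _ _ h1)

/-- the 24-dimensional subspace -/
def S24 (F : Type*) [Field F] : Submodule F (chevE8.Idx → F) :=
  Submodule.span F (Set.range fun k => (Pi.single (f24 k) 1 : chevE8.Idx → F))

theorem finrank_S24 (F : Type*) [Field F] : finrank F (S24 F) = 24 := by
  unfold S24
  have h1 : LinearIndependent F (fun k => (Pi.single (f24 k) 1 : chevE8.Idx → F)) := by
    have h2 := (Pi.basisFun F chevE8.Idx).linearIndependent.comp f24 f24_inj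
    have h3 : (fun k => (Pi.single (f24 k) 1 : chevE8.Idx → F)) = (Pi.basisFun F chevE8.Idx) ∘ f24 := by
      funext k
      rw [Function.comp_apply, Pi.basisFun_apply]
    rw [h3]
    exact h2
  rw [finrank_span_eq_card h1]
  rfl

theorem x_fix {F : Type*} [Field F] {r : ℕ} (hr : r ∈ R2) (t : F) {v : chevE8.Idx → F} (hv : v ∈ S24 F) :
    chevE8.x F r t *ᵥ v = v := by
  have hc := chk
  rw [List.all_eq_true] at hc
  have h1 := hc r hr
  simp only [Bool.and_eq_true, List.all_eq_true, decide_eq_true_eq, Bool.not_eq_true'] at h1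
  obtain ⟨⟨⟨hr240, h2⟩, h3⟩, h4⟩ := h1
  have hrlt : r < chevE8.nroots := by
    rw [Nat.blt_eq] at hr240
    exact hr240
  unfold S24 at hv
  induction hv using Submodule.span_induction with
  | mem w hw =>
    obtain ⟨k, rfl⟩ := hw
    rcases k with i | k
    · have h5 : (Pi.single (f24 (Sum.inl i)) 1 : chevE8.Idx → F) = hv chevE8 F i.1 := by
        funext a
        rcases a with a | a
        · rw [hv_inl]
          by_cases h : a.1 = i.1
          · have : a = ⟨i.1, by have := i.2; show i.1 < 8; omega⟩ := Fin.ext h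
            rw [if_pos h, this]
            exact Pi.single_eq_same _ _
          · rw [if_neg h]
            refine Pi.single_eq_of_ne ?_ _
            intro h'
            exact h (congrArg Fin.val (Sum.inl_injective h'))
        · rw [hv_inr]
          refine Pi.single_eq_of_ne ?_ _
          intro h'
          cases h'
      have hi : i.1 < chevE8.rank := by have := i.2; show i.1 < 8; omega
      have h6 := h4 i.1 (List.mem_range.2 i.2)
      show chevE8.x F r t *ᵥ (Pi.single (f24 (Sum.inl i)) 1 : chevE8.Idx → F) = _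
      rw [h5, x_mulVec_hv hrlt hi, h6, Int.cast_zero, zero_mul, zero_smul, sub_zero]
      exact h5.symm
    · have h5 : (Pi.single (f24 (Sum.inr k)) 1 : chevE8.Idx → F) = ev chevE8 F (R1.getD k 0) :=
        (ev_eq_single (lt1 k)).symm
      have hmem : R1.getD k 0 ∈ R1 := by
        rw [List.getD_eq_getElem _ _ k.2]
        exact List.getElem_mem _
      obtain ⟨⟨⟨-, h6⟩, h7⟩, h8⟩ := h2 _ hmem
      show chevE8.x F r t *ᵥ (Pi.single (f24 (Sum.inr k)) 1 : chevE8.Idx → F) = _
      rw [h5, x_mulVec_ev hrlt (lt1 k) (fun h => by rw [h, Nat.beq_refl] at h6; cases h6)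
        (fun h => by rw [h, Nat.beq_refl] at h7; cases h7) h3]
      rcases Cfsg.Agent.H736.Co3.Tb.chainEntry_cases chevE8 r (R1.getD k 0) with ⟨e, he, he1, -⟩ | ⟨-, h9⟩
      · exfalso
        have := h8 e he
        rw [he1, Nat.beq_refl] at this
        cases this
      · rw [h9, List.zipIdx_nil, List.map_nil, List.sum_nil, add_zero]
        exact h5.symm
  | zero => rw [Matrix.mulVec_zero]
  | add a b _ _ ha hb => rw [Matrix.mulVec_add, ha, hb]
  | smul c a _ ha => rw [Matrix.mulVec_smul, ha]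

/-- the subgroup generated by the root elements of `E₂` -/
def E2 (F : Type*) [Field F] (hE : InList chevE8) : Subgroup (GL chevE8.Idx F) :=
  Subgroup.closure {g | ∃ r ∈ R2, ∃ t : F, g = xG hE r t}

theorem E2_fix {F : Type*} [Field F] {hE : InList chevE8} {g : GL chevE8.Idx F} (hg : g ∈ E2 F hE) {v : chevE8.Idx → F}
    (hv : v ∈ S24 F) : (g : Matrix chevE8.Idx chevE8.Idx F) *ᵥ v = v := by
  unfold E2 at hg
  induction hg using Subgroup.closure_induction with
  | mem g hg =>
    obtain ⟨r, hr, t, rfl⟩ := hg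
    rw [coe_xG]
    exact x_fix hr t hv
  | one => rw [Units.val_one, Matrix.one_mulVec]
  | mul a b _ _ ha hb => rw [Units.val_mul, ← Matrix.mulVec_mulVec, hb, ha]
  | inv a _ ha =>
    have h1 : ((a⁻¹ : GL chevE8.Idx F) : Matrix chevE8.Idx chevE8.Idx F) *ᵥ ((a : Matrix chevE8.Idx chevE8.Idx F) *ᵥ v) = v := by
      rw [Matrix.mulVec_mulVec, ← Units.val_mul, inv_mul_cancel, Units.val_one, Matrix.one_mulVec]
    rwa [ha] at h1

/-- **24 dimensions fixed by `E₂`** -/
theorem h24 {hE : InList chevE8} {x y : ↥(chevE8.group (ZMod 3))} (hx : (x : GL chevE8.Idx (ZMod 3)) ∈ E2 (ZMod 3) hE)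
    (hy : (y : GL chevE8.Idx (ZMod 3)) ∈ E2 (ZMod 3) hE) :
    24 ≤ finrank (ZMod 3) ↥(LinearMap.ker (adjR x - 1) ⊓ LinearMap.ker (adjR y - 1)) := by
  rw [← finrank_S24 (ZMod 3)]
  refine Submodule.finrank_mono fun v hv => ?_
  rw [Submodule.mem_inf, LinearMap.mem_ker, LinearMap.mem_ker, LinearMap.sub_apply, LinearMap.sub_apply,
    Module.End.one_apply, adjR_apply, adjR_apply, E2_fix hx hv, E2_fix hy hv, sub_self]
  exact ⟨rfl, rfl⟩

end Cfsg.Agent.H627.E8L
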